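import Cfsg.Agent.Coh.IrrUnif
import Cfsg.Agent.Coh.Sibley

/-!
# Coherence for a Frobenius kernel, any parity (owner: helper57)
-/

set_option autoImplicit false
set_option linter.unusedSectionVars false

namespace Cfsg.Agent.Coh

open scoped ComplexConjugate
open Cfsg Cfsg.Agent.CharBase

universe u v

section

variable {L : Type u} [Group L] [Fintype L] {G : Type v} [Group G] [Fintype G]
variable (K : Subgroup L) [hK : K.Normal] {τ : (L → ℂ) → (G → ℂ)}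

theorem above_irr (hC : ∀ k ∈ K, k ≠ 1 → Subgroup.centralizer ({k} : Set L) ≤ K) {A : Subgroup L} {χ : L → ℂ}
    (h : χ ∈ inducedIrrAbove K A) : IsIrrCharacter L χ := by
  have := above_subset_bot K h
  rw [frobKer_above_eq K hC] at this
  exact this.1

theorem iso_restrict {S V : Set (L → ℂ)} (hSV : S ⊆ V) (hτ : IsLinearIsometryOn (zspanOn V {1}ᶜ) τ) :
    IsLinearIsometryOn (zspanOn S {1}ᶜ) τ :=
  ⟨fun α hα β hβ => hτ.1 α (zspanOn_mono hSV hα) β (zspanOn_mono hSV hβ),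
    fun α hα m => hτ.2.1 α (zspanOn_mono hSV hα) m,
    fun α hα β hβ => hτ.2.2.1 α (zspanOn_mono hSV hα) β (zspanOn_mono hSV hβ),
    fun α hα => hτ.2.2.2 α (zspanOn_mono hSV hα)⟩

theorem sum_above_sq (hC : ∀ k ∈ K, k ≠ 1 → Subgroup.centralizer ({k} : Set L) ≤ K) (A : Subgroup L) [A.Normal]
    (hAK : A ≤ K) (T : Finset (L → ℂ)) (hT : (T : Set (L → ℂ)) = inducedIrrAbove K A) (d : (L → ℂ) → ℕ)
    (hd : ∀ φ ∈ T, φ 1 = (d φ : ℂ)) : ∑ φ ∈ T, d φ ^ 2 = K.index * (A.relIndex K - 1) := by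
  have hmT : ∀ φ, φ ∈ T ↔ φ ∈ inducedIrrAbove K A := fun φ => by rw [← hT]; simp
  have h1 := sum_above K A T hT d (fun _ => 1) hd (fun φ hφ => by
    have := classInner_irr_self ⟨φ, above_irr K hC ((hmT φ).1 hφ)⟩
    rw [Nat.cast_one]; exact this)
  have hpos : 0 < A.relIndex K := Nat.pos_of_ne_zero Subgroup.index_ne_zero_of_finite
  have h2 : ((∑ φ ∈ T, d φ ^ 2 : ℕ) : ℝ) = ((K.index * (A.relIndex K - 1) : ℕ) : ℝ) := by
    push_cast [Nat.cast_sub hpos]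
    rw [← h1]
    apply Finset.sum_congr rfl
    intro φ _
    norm_num
  exact_mod_cast h2

/-- `S(K')` is coherent unless `[K:K'] = [L:K] + 1`. -/
theorem coherent_linear_irr (hC : ∀ k ∈ K, k ≠ 1 → Subgroup.centralizer ({k} : Set L) ≤ K) (A : Subgroup L) [A.Normal]
    (hA : ⁅K, K⁆ ≤ A) (hAK : A < K) (hne : A.relIndex K ≠ K.index + 1)
    (hτ : IsLinearIsometryOn (zspanOn (inducedIrrAbove K ⊥) {1}ᶜ) τ)
    (hτ1 : ∀ α ∈ zspanOn (inducedIrrAbove K ⊥) {1}ᶜ, τ α 1 = 0) :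
    IsCoherent (inducedIrrAbove K A) {1}ᶜ τ := by
  classical
  obtain ⟨T, hT⟩ := (above_finite K A).exists_finset_coe
  have hmT : ∀ φ, φ ∈ T ↔ φ ∈ inducedIrrAbove K A := fun φ => by rw [← hT]; simp
  have hdeg : ∀ χ ∈ T, χ 1 = (K.index : ℂ) := fun χ hχ => above_linear_degree K hA ((hmT χ).1 hχ)
  have hsum := sum_above_sq K hC A hAK.le T hT (fun _ => K.index) hdeg
  simp only [Finset.sum_const, smul_eq_mul] at hsum
  have hepos : 0 < K.index := Nat.pos_of_ne_zero (Subgroup.index_ne_zero_of_finite (H := K))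
  have hpos : 0 < A.relIndex K := Nat.pos_of_ne_zero Subgroup.index_ne_zero_of_finite
  have hne1 : A.relIndex K ≠ 1 := fun h => hAK.not_ge (Subgroup.relIndex_eq_one.1 h)
  have h1 : T.card * K.index = A.relIndex K - 1 := by
    apply Nat.eq_of_mul_eq_mul_left hepos
    rw [← hsum]; ring
  have h2 : 2 ≤ T.card := by
    by_contra hcon
    have h3 : T.card = 0 ∨ T.card = 1 := by omega
    rcases h3 with h3 | h3
    · rw [h3, zero_mul] at h1; omega
    · rw [h3, one_mul] at h1; omega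
  obtain ⟨a, ha, b, hb, hab⟩ := Finset.one_lt_card.1 h2
  have hsub : (T : Set (L → ℂ)) ⊆ inducedIrrAbove K ⊥ := by rw [hT]; exact above_subset_bot K
  have := coherent_uniform_irr (T := T) (fun χ hχ => above_irr K hC ((hmT χ).1 hχ)) ⟨a, ha, b, hb, hab⟩
    (fun χ hχ ξ hξ => by rw [hdeg χ hχ, hdeg ξ hξ]) (iso_restrict hsub hτ)
    (fun α hα => hτ1 α (zspanOn_mono hsub hα))
  rwa [hT] at this

/-- one step of the descent -/
theorem above_extend_irr (hsolv : Group.IsSolvable K)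
    (hC : ∀ k ∈ K, k ≠ 1 → Subgroup.centralizer ({k} : Set L) ≤ K)
    (hτ : IsLinearIsometryOn (zspanOn (inducedIrrAbove K ⊥) {1}ᶜ) τ)
    (hτ1 : ∀ α ∈ zspanOn (inducedIrrAbove K ⊥) {1}ᶜ, τ α 1 = 0)
    (A B : Subgroup L) [hA : A.Normal] [hB : B.Normal] (hBA : B ≤ A) (hAK : A < K)
    (hcoh : IsCoherent (inducedIrrAbove K A) {1}ᶜ τ)
    (hdeg : ∀ ψ ∈ inducedIrrAbove K B, ∀ m : ℕ, ψ 1 = m → 2 * m < A.relIndex K - 1) :
    IsCoherent (inducedIrrAbove K B) {1}ᶜ τ := by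
  classical
  obtain ⟨d, n, hd, hn, hdvd, hdpos, hnpos⟩ := above_exists_dn K
  obtain ⟨TA, hTA⟩ := (above_finite K A).exists_finset_coe
  obtain ⟨TB, hTB⟩ := (above_finite K B).exists_finset_coe
  obtain ⟨χ₁, hχ₁, hχ₁d⟩ := exists_linear_member K hsolv A hAK
  have hsubA := above_subset_bot K (A := A)
  have hsubB := above_subset_bot K (A := B)
  have hmA : ∀ φ, φ ∈ TA ↔ φ ∈ inducedIrrAbove K A := fun φ => by rw [← hTA]; simp
  have hmB : ∀ φ, φ ∈ TB ↔ φ ∈ inducedIrrAbove K B := fun φ => by rw [← hTB]; simp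
  have hd1 : d χ₁ = K.index := by
    have := hd χ₁ (hsubA hχ₁)
    rw [hχ₁d] at this
    exact_mod_cast this.symm
  have hsum := sum_above_sq K hC A hAK.le TA hTA d (fun φ hφ => hd φ (hsubA ((hmA φ).1 hφ)))
  have hepos : 0 < K.index := Nat.pos_of_ne_zero (Subgroup.index_ne_zero_of_finite (H := K))
  have hTBs : (TB : Set (L → ℂ)) ⊆ inducedIrrAbove K ⊥ := by rw [hTB]; exact hsubB
  have key := extend_all_irr (τ := τ) d TB (fun ξ hξ => above_irr K hC ((hmB ξ).1 hξ))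
    (fun ξ hξ => hd ξ (hsubB ((hmB ξ).1 hξ))) (iso_restrict hTBs hτ) (fun α hα => hτ1 α (zspanOn_mono hTBs hα)) TA
    (fun ξ hξ => (hmB ξ).2 (above_mono K hBA ((hmA ξ).1 hξ))) (by rw [hTA]; exact hcoh) χ₁ ((hmA χ₁).2 hχ₁)
    (fun χ hχ => by rw [hd1]; exact hdvd χ (hsubB ((hmB χ).1 hχ))) ?_
  · rwa [hTB] at key
  · intro χ hχ _
    rw [hsum, hd1]
    have h1 := hdeg χ ((hmB χ).1 hχ) (d χ) (hd χ (hsubB ((hmB χ).1 hχ)))
    calc 2 * K.index * d χ = K.index * (2 * d χ) := by ring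
      _ < K.index * (A.relIndex K - 1) := Nat.mul_lt_mul_of_pos_left h1 hepos

/-- the descent -/
theorem descend_irr (hnil : Group.IsNilpotent K)
    (hC : ∀ k ∈ K, k ≠ 1 → Subgroup.centralizer ({k} : Set L) ≤ K)
    (hτ : IsLinearIsometryOn (zspanOn (inducedIrrAbove K ⊥) {1}ᶜ) τ)
    (hτ1 : ∀ α ∈ zspanOn (inducedIrrAbove K ⊥) {1}ᶜ, τ α 1 = 0)
    (A₀ : Subgroup L) (hA₀n : A₀.Normal) (hA₀ : A₀ < K) (hcoh : IsCoherent (inducedIrrAbove K A₀) {1}ᶜ τ)
    (hstep : ∀ A B : Subgroup L, A.Normal → B.Normal → B < A → A ≤ A₀ → ⁅A, K⁆ ≤ B →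
      (∀ N : Subgroup L, N.Normal → B < N → N < A → False) →
      ∀ ψ ∈ inducedIrrAbove K B, ∀ m : ℕ, ψ 1 = m → 2 * m < A.relIndex K - 1) :
    IsCoherent (inducedIrrAbove K ⊥) {1}ᶜ τ := by
  classical
  have hsolv : Group.IsSolvable K := inferInstance
  have hnilq : Group.IsNilpotent (K ⧸ (⊥ : Subgroup L).subgroupOf K) := inferInstance
  obtain ⟨N, hN⟩ := lcs_le_of_nilpotent_quotient hnilq
  suffices key : ∀ (k : ℕ) (A : Subgroup L), A.Normal → A ≤ A₀ → Nat.card A = k →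
      IsCoherent (inducedIrrAbove K A) {1}ᶜ τ → IsCoherent (inducedIrrAbove K ⊥) {1}ᶜ τ by
    exact key _ A₀ hA₀n le_rfl rfl hcoh
  intro k
  induction k using Nat.strong_induction_on with
  | _ k ih =>
    intro A hAn hAA₀ hk hA
    by_cases hAM : A = ⊥
    · rw [← hAM]; exact hA
    have hMltA : ⊥ < A := bot_lt_iff_ne_bot.2 hAM
    let P : Set (Subgroup L) := {B | B.Normal ∧ B < A}
    have hPfin : P.Finite := Set.toFinite _
    obtain ⟨B, hBmem, hBmax⟩ := hPfin.exists_maximal ⟨⊥, inferInstance, hMltA⟩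
    obtain ⟨hBn, hBA⟩ := hBmem
    have hAK : A < K := lt_of_le_of_lt hAA₀ hA₀
    have hcomm : ⁅A, K⁆ ≤ B := by
      have hle : ⁅A, K⁆ ⊔ B ≤ A := sup_le (Subgroup.commutator_le_left A K) hBA.le
      rcases hle.lt_or_eq with hlt | heq
      · have hmem : ⁅A, K⁆ ⊔ B ∈ P := ⟨inferInstance, hlt⟩
        exact le_sup_left.trans (hBmax hmem le_sup_right)
      · exact absurd (le_of_le_commutator_sup hAK.le (hN.trans bot_le) heq.ge) hBA.not_ge
    refine ih (Nat.card B) ?_ B hBn (hBA.le.trans hAA₀) rfl ?_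
    · rw [← hk]
      exact Set.ncard_lt_ncard (SetLike.coe_ssubset_coe.2 hBA) (Set.toFinite _)
    exact above_extend_irr K hsolv hC hτ hτ1 A B hBA.le hAK hA (hstep A B hAn hBn hBA hAA₀ hcomm
      (fun N hNn h1 h2 => (hBmax ⟨hNn, h2⟩ h1.le).not_gt h1))

/-- case of a large commutator quotient. -/
theorem coherent_of_big (hnil : Group.IsNilpotent K) (hK1 : K ≠ ⊥)
    (hC : ∀ k ∈ K, k ≠ 1 → Subgroup.centralizer ({k} : Set L) ≤ K)
    (hτ : IsLinearIsometryOn (zspanOn (inducedIrrAbove K ⊥) {1}ᶜ) τ)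
    (hτ1 : ∀ α ∈ zspanOn (inducedIrrAbove K ⊥) {1}ᶜ, τ α 1 = 0)
    (hH₁K : ⁅K, K⁆ < K) (hbig : 4 * K.index ^ 2 + 1 < (⁅K, K⁆ : Subgroup L).relIndex K) :
    IsCoherent (inducedIrrAbove K ⊥) {1}ᶜ τ := by
  have hepos : 0 < K.index := Nat.pos_of_ne_zero (Subgroup.index_ne_zero_of_finite (H := K))
  have hcommn : (⁅K, K⁆ : Subgroup L).Normal := inferInstance
  have hlin := coherent_linear_irr K hC ⁅K, K⁆ le_rfl hH₁K (by nlinarith) hτ hτ1
  apply descend_irr K hnil hC hτ hτ1 ⁅K, K⁆ hcommn hH₁K hlin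
  intro A B hAn hBn hBA hAA₀ hcomm _ ψ hψ m hm
  have h1 := above_degree_sq_le K B A K le_rfl (fun x hx y hy => by
    have := hcomm (Subgroup.commutator_mem_commutator hx hy)
    rwa [commutatorElement_def] at this) hψ hm
  have h2 : (⁅K, K⁆ : Subgroup L).relIndex K ≤ A.relIndex K :=
    Nat.le_of_dvd (Nat.pos_of_ne_zero Subgroup.index_ne_zero_of_finite)
      (Subgroup.relIndex_dvd_of_le_left K hAA₀)
  set x := A.relIndex K
  set e := K.index
  have hx : 4 * e ^ 2 + 2 ≤ x := by omega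
  by_contra hcon
  have h3 : x - 1 ≤ 2 * m := by omega
  have h4 : (x - 1) ^ 2 ≤ 4 * (e ^ 2 * x) := by
    calc (x - 1) ^ 2 ≤ (2 * m) ^ 2 := Nat.pow_le_pow_left h3 2
      _ = 4 * m ^ 2 := by ring
      _ ≤ 4 * (e ^ 2 * x) := by omega
  obtain ⟨t, ht⟩ := Nat.exists_eq_add_of_le hx
  have h5 : x - 1 = 4 * e ^ 2 + 1 + t := by omega
  rw [h5, ht] at h4
  nlinarith [sq_nonneg e, sq_nonneg t, mul_nonneg (sq_nonneg (e : ℕ)) (Nat.zero_le t)]

end

end Cfsg.Agent.Coh
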