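import Cfsg.Agent.Coh.IrrDesc

/-!
# Coherence for a Frobenius kernel, any parity: kernels which are not of prime power order (owner: helper57)
-/

set_option autoImplicit false
set_option linter.unusedSectionVars false

namespace Cfsg.Agent.Coh

open scoped ComplexConjugate
open Cfsg Cfsg.Agent.CharBase

universe u v

theorem prime_dvd_card_center {Γ : Type*} [Group Γ] [Finite Γ] (h : Group.IsNilpotent Γ) {r : ℕ} (hr : r.Prime)
    (hd : r ∣ Nat.card Γ) : r ∣ Nat.card (Subgroup.center Γ) := by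
  haveI := Fact.mk hr
  obtain ⟨P⟩ : Nonempty (Sylow r Γ) := inferInstance
  haveI := h
  haveI hP : (P : Subgroup Γ).Normal := (Group.isNilpotent_of_finite_tfae.out 0 3 rfl rfl).mp h r inferInstance P
  have h1 := Solv.inf_center_ne_bot_of_nilpotent (P : Subgroup Γ) (P.ne_bot_of_dvd_card hd)
  rcases (P.isPGroup'.to_le (inf_le_left : (P : Subgroup Γ) ⊓ Subgroup.center Γ ≤ P)).card_eq_or_dvd with h2 | h2
  · exact absurd (Subgroup.card_eq_one.1 h2) h1
  · exact h2.trans (Subgroup.card_dvd_of_le inf_le_right)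

theorem exists_two_primes {n : ℕ} (hn : n ≠ 0) (h : ¬ ∃ p m : ℕ, p.Prime ∧ n = p ^ m) :
    ∃ p q : ℕ, p.Prime ∧ q.Prime ∧ p ≠ q ∧ p ∣ n ∧ q ∣ n := by
  have h1 : n ≠ 1 := fun h1 => h ⟨2, 0, Nat.prime_two, by rw [h1, pow_zero]⟩
  obtain ⟨p, hp, hpd⟩ := Nat.exists_prime_and_dvd h1
  by_contra hcon
  push Not at hcon
  apply h
  refine ⟨p, n.primeFactorsList.length, hp, Nat.eq_prime_pow_of_unique_prime_dvd hn ?_⟩
  intro q hq hqd
  by_contra hne
  exact hcon p q hp hq (Ne.symm hne) hpd hqd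

section

variable {L : Type u} [Group L] [Fintype L] {G : Type v} [Group G] [Fintype G]
variable (K : Subgroup L) [hK : K.Normal] {τ : (L → ℂ) → (G → ℂ)}

/-- the preimage of the center of `K/B` -/
def cenMod (B : Subgroup L) [B.Normal] : Subgroup L :=
  K ⊓ (Subgroup.centralizer ((K.map (QuotientGroup.mk' B) : Subgroup (L ⧸ B)) : Set (L ⧸ B))).comap
    (QuotientGroup.mk' B)

theorem mem_cenMod {B : Subgroup L} [B.Normal] {x : L} :
    x ∈ cenMod K B ↔ x ∈ K ∧ ∀ y ∈ K, x * y * x⁻¹ * y⁻¹ ∈ B := by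
  have key : ∀ y : L, (QuotientGroup.mk' B y * QuotientGroup.mk' B x = QuotientGroup.mk' B x * QuotientGroup.mk' B y) ↔
      x * y * x⁻¹ * y⁻¹ ∈ B := by
    intro y
    rw [← QuotientGroup.eq_one_iff (x * y * x⁻¹ * y⁻¹)]
    change _ ↔ QuotientGroup.mk' B (x * y * x⁻¹ * y⁻¹) = 1
    rw [map_mul, map_mul, map_mul, map_inv, map_inv, mul_inv_eq_one, mul_inv_eq_iff_eq_mul]
    exact eq_comm
  rw [cenMod, Subgroup.mem_inf, Subgroup.mem_comap, Subgroup.mem_centralizer_iff]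
  constructor
  · rintro ⟨h1, h2⟩
    exact ⟨h1, fun y hy => (key y).1 (h2 _ ⟨y, hy, rfl⟩)⟩
  · rintro ⟨h1, h2⟩
    refine ⟨h1, ?_⟩
    rintro _ ⟨y, hy, rfl⟩
    exact (key y).2 (h2 y hy)

theorem cenMod_normal (B : Subgroup L) [B.Normal] : (cenMod K B).Normal := by
  constructor
  intro n hn g
  rw [mem_cenMod] at hn ⊢
  refine ⟨hK.conj_mem n hn.1 g, ?_⟩
  intro y hy
  have h1 := hn.2 (g⁻¹ * y * g) (by have := hK.conj_mem y hy g⁻¹; rwa [inv_inv] at this)
  have h2 := (inferInstance : B.Normal).conj_mem _ h1 g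
  have h3 : g * (n * (g⁻¹ * y * g) * n⁻¹ * (g⁻¹ * y * g)⁻¹) * g⁻¹ = g * n * g⁻¹ * y * (g * n * g⁻¹)⁻¹ * y⁻¹ := by
    group
  rwa [h3] at h2

theorem prime_dvd_cenMod (hnil : Group.IsNilpotent K) (B : Subgroup L) [B.Normal] (hBK : B ≤ K) {r : ℕ} (hr : r.Prime)
    (hd : r ∣ B.relIndex K) : r ∣ B.relIndex (cenMod K B) := by
  haveI := Fact.mk hr
  have hBD : B ≤ cenMod K B := by
    intro b hb
    rw [mem_cenMod]
    refine ⟨hBK hb, fun y hy => ?_⟩
    have h1 := (inferInstance : B.Normal).conj_mem _ (B.inv_mem hb) y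
    have h2 := B.mul_mem hb h1
    have h3 : b * (y * b⁻¹ * y⁻¹) = b * y * b⁻¹ * y⁻¹ := by group
    rwa [h3] at h2
  have hnilΓ : Group.IsNilpotent ↥(K.map (QuotientGroup.mk' B)) := by
    haveI := hnil
    exact nilpotent_of_surjective ((QuotientGroup.mk' B).subgroupMap K) ((QuotientGroup.mk' B).subgroupMap_surjective K)
  have h1 := prime_dvd_card_center hnilΓ hr (by rw [card_map_mk' B K hBK]; exact hd)
  obtain ⟨z, hz⟩ := exists_prime_orderOf_dvd_card' r h1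
  have hzo : orderOf (((z : ↥(K.map (QuotientGroup.mk' B))) : L ⧸ B)) = r := by
    rw [← hz, Subgroup.orderOf_coe, Subgroup.orderOf_coe]
  have hzm : (((z : ↥(K.map (QuotientGroup.mk' B))) : L ⧸ B)) ∈ (cenMod K B).map (QuotientGroup.mk' B) := by
    obtain ⟨x, hx, hxz⟩ := (z : ↥(K.map (QuotientGroup.mk' B))).2
    refine ⟨x, ?_, hxz⟩
    refine Subgroup.mem_inf.2 ⟨hx, ?_⟩
    rw [Subgroup.mem_comap, hxz, Subgroup.mem_centralizer_iff]
    intro y hy
    exact congrArg Subtype.val (Subgroup.mem_center_iff.1 z.2 ⟨y, hy⟩)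
  rw [← card_map_mk' B (cenMod K B) hBD, ← hzo]
  exact Subgroup.orderOf_dvd_natCard _ hzm

/-- `[K:K'] ≥ (e+1)²` if `K` is not of prime power order -/
theorem relIndex_ge_of_not_pgroup (hnil : Group.IsNilpotent K)
    (hC : ∀ k ∈ K, k ≠ 1 → Subgroup.centralizer ({k} : Set L) ≤ K) (hH₁K : ⁅K, K⁆ < K)
    (hnp : ¬ ∃ p m : ℕ, p.Prime ∧ Nat.card K = p ^ m) :
    (K.index + 1) ^ 2 ≤ (⁅K, K⁆ : Subgroup L).relIndex K := by
  have hcommn : (⁅K, K⁆ : Subgroup L).Normal := inferInstance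
  obtain ⟨p, q, hp, hq, hpq, hpd, hqd⟩ := exists_two_primes Nat.card_pos.ne' hnp
  have hnilq : Group.IsNilpotent (K ⧸ (⊥ : Subgroup L).subgroupOf K) := inferInstance
  have hdv : ∀ r : ℕ, r.Prime → r ∣ Nat.card K → r ∣ (⁅K, K⁆ : Subgroup L).relIndex K := fun r hr hd =>
    prime_dvd_relIndex_of_nilpotent K ⊥ bot_le hnilq ⁅K, K⁆ bot_le le_rfl le_sup_left hr
      (by rw [Subgroup.relIndex_bot_left]; exact hd)
  have hex : ∃ N : Subgroup L, N.Normal ∧ ⁅K, K⁆ < N ∧ N < K := by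
    by_contra hno
    obtain ⟨r, a, hr, ha, hra⟩ := exists_prime_pow_relIndex K ⁅K, K⁆ le_rfl hH₁K hno
    have h1 := hdv p hp hpd
    have h2 := hdv q hq hqd
    rw [hra] at h1 h2
    exact hpq (((Nat.prime_dvd_prime_iff_eq hp hr).1 (hp.dvd_of_dvd_pow h1)).trans
      ((Nat.prime_dvd_prime_iff_eq hq hr).1 (hq.dvd_of_dvd_pow h2)).symm)
  obtain ⟨N, hN, h1, h2⟩ := hex
  have e1 := index_dvd_relIndex_sub_one K ⁅K, K⁆ N le_rfl h1.le h2.le (frob_quot K hC ⁅K, K⁆ hH₁K.le)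
  have e2 := index_dvd_relIndex_sub_one K N K h1.le h2.le le_rfl (frob_quot K hC N h2.le)
  have p1 : 0 < (⁅K, K⁆ : Subgroup L).relIndex N := Nat.pos_of_ne_zero Subgroup.index_ne_zero_of_finite
  have p2 : 0 < N.relIndex K := Nat.pos_of_ne_zero Subgroup.index_ne_zero_of_finite
  have n1 : (⁅K, K⁆ : Subgroup L).relIndex N ≠ 1 := fun h => h1.not_ge (Subgroup.relIndex_eq_one.1 h)
  have n2 : N.relIndex K ≠ 1 := fun h => h2.not_ge (Subgroup.relIndex_eq_one.1 h)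
  have g1 := Nat.le_of_dvd (by omega) e1
  have g2 := Nat.le_of_dvd (by omega) e2
  rw [← Subgroup.relIndex_mul_relIndex ⁅K, K⁆ N K h1.le h2.le, sq]
  exact Nat.mul_le_mul (by omega) (by omega)

theorem ineq_np {e x D m : ℕ} (hx : (e + 1) ^ 2 ≤ x) (he : 0 < e) (hD : (e + 1) * D ≤ x) (hm : m ^ 2 ≤ e ^ 2 * D) :
    2 * m < x - 1 := by
  by_contra hcon
  have h3 : x - 1 ≤ 2 * m := by omega
  have h4 : (x - 1) ^ 2 ≤ 4 * (e ^ 2 * D) := by
    calc (x - 1) ^ 2 ≤ (2 * m) ^ 2 := Nat.pow_le_pow_left h3 2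
      _ = 4 * m ^ 2 := by ring
      _ ≤ 4 * (e ^ 2 * D) := by omega
  have h5 : (x - 1) ^ 2 * (e + 1) ≤ 4 * e ^ 2 * x := by
    calc (x - 1) ^ 2 * (e + 1) ≤ 4 * (e ^ 2 * D) * (e + 1) := Nat.mul_le_mul_right _ h4
      _ = 4 * e ^ 2 * ((e + 1) * D) := by ring
      _ ≤ 4 * e ^ 2 * x := Nat.mul_le_mul_left _ hD
  obtain ⟨t, rfl⟩ := Nat.exists_eq_add_of_le hx
  have h6 : (e + 1) ^ 2 + t - 1 = e ^ 2 + 2 * e + t := by
    have : (e + 1) ^ 2 = e ^ 2 + 2 * e + 1 := by ring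
    omega
  rw [h6] at h5
  have h7 : (e ^ 2 + 2 * e + t) ^ 2 * (e + 1) = 4 * e ^ 2 * ((e + 1) ^ 2 + t) +
      (e ^ 4 * (e + 1) + t * (2 * e ^ 3 + 2 * e ^ 2 + 4 * e) + (e + 1) * t ^ 2) := by ring
  rw [h7] at h5
  have h8 : 0 < e ^ 4 * (e + 1) := by positivity
  have h9 : 0 ≤ t * (2 * e ^ 3 + 2 * e ^ 2 + 4 * e) := Nat.zero_le _
  omega

/-- case where `K` is not of prime power order. -/
theorem coherent_of_not_pgroup (hnil : Group.IsNilpotent K)
    (hC : ∀ k ∈ K, k ≠ 1 → Subgroup.centralizer ({k} : Set L) ≤ K)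
    (hτ : IsLinearIsometryOn (zspanOn (inducedIrrAbove K ⊥) {1}ᶜ) τ)
    (hτ1 : ∀ α ∈ zspanOn (inducedIrrAbove K ⊥) {1}ᶜ, τ α 1 = 0)
    (hH₁K : ⁅K, K⁆ < K) (hnp : ¬ ∃ p m : ℕ, p.Prime ∧ Nat.card K = p ^ m) :
    IsCoherent (inducedIrrAbove K ⊥) {1}ᶜ τ := by
  have hepos : 0 < K.index := Nat.pos_of_ne_zero (Subgroup.index_ne_zero_of_finite (H := K))
  have hcommn : (⁅K, K⁆ : Subgroup L).Normal := inferInstance
  have hge := relIndex_ge_of_not_pgroup K hnil hC hH₁K hnp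
  have hlin := coherent_linear_irr K hC ⁅K, K⁆ le_rfl hH₁K (by nlinarith) hτ hτ1
  obtain ⟨p, q, hp, hq, hpq, hpd, hqd⟩ := exists_two_primes Nat.card_pos.ne' hnp
  have hnilq : Group.IsNilpotent (K ⧸ (⊥ : Subgroup L).subgroupOf K) := inferInstance
  apply descend_irr K hnil hC hτ hτ1 ⁅K, K⁆ hcommn hH₁K hlin
  intro A B hAn hBn hBA hAA₀ hcomm hmax ψ hψ m hm
  have hAK : A ≤ K := hAA₀.trans hH₁K.le
  have hBK : B ≤ K := hBA.le.trans hAK
  have hDn := cenMod_normal K B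
  have hDK : cenMod K B ≤ K := inf_le_left
  have hAD : A ≤ cenMod K B := by
    intro a ha
    rw [mem_cenMod]
    refine ⟨hAK ha, fun y hy => ?_⟩
    have := hcomm (Subgroup.commutator_mem_commutator ha hy)
    rwa [commutatorElement_def] at this
  have hdv : ∀ r : ℕ, r.Prime → r ∣ Nat.card K → r ∣ B.relIndex (cenMod K B) := by
    intro r hr hd
    apply prime_dvd_cenMod K hnil B hBK hr
    have h1 : r ∣ (⁅K, K⁆ : Subgroup L).relIndex K :=
      prime_dvd_relIndex_of_nilpotent K ⊥ bot_le hnilq ⁅K, K⁆ bot_le le_rfl le_sup_left hr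
        (by rw [Subgroup.relIndex_bot_left]; exact hd)
    exact h1.trans (Subgroup.relIndex_dvd_of_le_left K (hBA.le.trans hAA₀))
  have hne : A ≠ cenMod K B := by
    intro h
    obtain ⟨r, a, hr, ha, hra⟩ := exists_prime_pow_relIndex A B
      ((Subgroup.commutator_mono le_rfl hAK).trans hcomm) hBA (by
        rintro ⟨N, hN, h1, h2⟩
        exact hmax N hN h1 h2)
    have h1 := hdv p hp hpd
    have h2 := hdv q hq hqd
    rw [← h, hra] at h1 h2
    exact hpq (((Nat.prime_dvd_prime_iff_eq hp hr).1 (hp.dvd_of_dvd_pow h1)).trans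
      ((Nat.prime_dvd_prime_iff_eq hq hr).1 (hq.dvd_of_dvd_pow h2)).symm)
  have hADlt : A < cenMod K B := lt_of_le_of_ne hAD hne
  -- `[D:A] ≥ e + 1`
  have hDA : K.index + 1 ≤ A.relIndex (cenMod K B) := by
    have h1 : K.index ∣ A.relIndex (cenMod K B) - 1 := by
      rw [← card_map_mk' A (cenMod K B) hAD]
      have h2 : (K.map (QuotientGroup.mk' A)).index = K.index :=
        Subgroup.index_map_eq K (QuotientGroup.mk'_surjective A) (by
          rw [QuotientGroup.ker_mk']; exact hAK)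
      rw [← h2]
      have hfr := frob_quot K hC A hAK
      haveI : ((cenMod K B).map (QuotientGroup.mk' A)).Normal :=
        Subgroup.Normal.map inferInstance _ (QuotientGroup.mk'_surjective A)
      apply index_dvd_card_sub_one_of_central
      · rintro _ ⟨a, ha, rfl⟩ _ ⟨b, hb, rfl⟩
        rw [← map_mul, ← map_mul, QuotientGroup.mk'_apply, QuotientGroup.mk'_apply, QuotientGroup.eq]
        have h5 := ((mem_cenMod K).1 ((cenMod K B).inv_mem hb)).2 a⁻¹ (K.inv_mem ha)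
        rw [inv_inv, inv_inv] at h5
        have h6 : (a * b)⁻¹ * (b * a) = b⁻¹ * a⁻¹ * b * a := by group
        rw [h6]
        exact hBA.le h5
      · rintro _ ⟨k, hk, rfl⟩ hk1 y hy
        obtain ⟨x, rfl⟩ := QuotientGroup.mk'_surjective A y
        have hk2 : k ∉ A := by
          intro h
          apply hk1
          rw [QuotientGroup.mk'_apply, QuotientGroup.eq_one_iff]
          exact h
        refine ⟨x, hfr k (hDK hk) hk2 x ?_, rfl⟩
        rw [← map_mul, ← map_mul, QuotientGroup.mk'_apply, QuotientGroup.mk'_apply,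
          QuotientGroup.eq] at hy
        have h6 : x * k * x⁻¹ * k⁻¹ = (k * x) * ((x * k)⁻¹ * (k * x))⁻¹ * (k * x)⁻¹ := by group
        rw [h6]
        exact Subgroup.Normal.conj_mem inferInstance _ (A.inv_mem hy) _
    have p1 : 0 < A.relIndex (cenMod K B) := Nat.pos_of_ne_zero Subgroup.index_ne_zero_of_finite
    have n1 : A.relIndex (cenMod K B) ≠ 1 := fun h => hADlt.not_ge (Subgroup.relIndex_eq_one.1 h)
    have := Nat.le_of_dvd (by omega) h1
    omega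
  have h1 := above_degree_sq_le K B (cenMod K B) K le_rfl (fun x hx y hy => ((mem_cenMod K).1 hx).2 y hy) hψ hm
  have h2 : (⁅K, K⁆ : Subgroup L).relIndex K ≤ A.relIndex K :=
    Nat.le_of_dvd (Nat.pos_of_ne_zero Subgroup.index_ne_zero_of_finite)
      (Subgroup.relIndex_dvd_of_le_left K hAA₀)
  have h3 := Subgroup.relIndex_mul_relIndex A (cenMod K B) K hAD hDK
  refine ineq_np (e := K.index) (D := (cenMod K B).relIndex K) (hge.trans h2) hepos ?_ h1
  rw [← h3]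
  exact Nat.mul_le_mul_right _ hDA

end

end Cfsg.Agent.Coh
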