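import Cfsg.Agent.Coh.IrrDesc2
import Cfsg.Prelude.Def_Transfer

/-!
# Coherence for a Frobenius kernel, any parity: main results (owner: helper57)
-/

set_option autoImplicit false
set_option linter.unusedSectionVars false

namespace Cfsg.Agent.Coh

open scoped ComplexConjugate
open Cfsg Cfsg.Agent.CharBase

universe u v

section

variable {L : Type u} [Group L] [Fintype L] {G : Type v} [Group G] [Fintype G]
variable (K : Subgroup L) [hK : K.Normal] {τ : (L → ℂ) → (G → ℂ)}

theorem commutator_lt (hnil : Group.IsNilpotent K) (hK1 : K ≠ ⊥) : ⁅K, K⁆ < K := by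
  have hsolv : Group.IsSolvable K := inferInstance
  have h1 : Nontrivial K := by
    rw [Subgroup.nontrivial_iff_ne_bot]; exact hK1
  have h2 := Group.IsSolvable.commutator_lt_top_of_nontrivial K
  refine lt_of_le_of_ne (Subgroup.commutator_le_self K) fun h => ?_
  apply h2.ne
  apply Subgroup.map_injective K.subtype_injective
  rw [Subgroup.map_subtype_commutator, h, ← MonoidHom.range_eq_map, K.range_subtype]

theorem commutator_eq_bot_iff' : ⁅K, K⁆ = (⊥ : Subgroup L) ↔ IsMulCommutative K := by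
  rw [Subgroup.commutator_eq_bot_iff_le_centralizer]
  constructor
  · intro h
    refine ⟨⟨fun a b => Subtype.ext ?_⟩⟩
    exact (Subgroup.mem_centralizer_iff.1 (h a.2) b b.2).symm
  · intro h a ha
    rw [Subgroup.mem_centralizer_iff]
    intro b hb
    exact congrArg Subtype.val (h.1.1 (⟨b, hb⟩ : K) ⟨a, ha⟩)

/-- S1535 -/
theorem coherent_main (hnil : Group.IsNilpotent K) (hK1 : K ≠ ⊥)
    (hC : ∀ k ∈ K, k ≠ 1 → Subgroup.centralizer ({k} : Set L) ≤ K) (he : Nat.card K ≠ K.index + 1)
    (hτ : IsLinearIsometryOn (zspanOn (inducedIrrAbove K ⊥) {1}ᶜ) τ)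
    (hτ1 : ∀ α ∈ zspanOn (inducedIrrAbove K ⊥) {1}ᶜ, τ α 1 = 0) :
    IsCoherent (inducedIrrAbove K ⊥) {1}ᶜ τ ∨ ∃ p : ℕ, p.Prime ∧ (∃ m : ℕ, Nat.card K = p ^ m) ∧
      ¬ IsMulCommutative K ∧ (⁅K, K⁆ : Subgroup L).relIndex K ≤ 4 * K.index ^ 2 + 1 := by
  have hlt := commutator_lt K hnil hK1
  by_cases hcomm : IsMulCommutative K
  · left
    apply coherent_linear_irr K hC ⊥ _ (bot_lt_iff_ne_bot.2 hK1) _ hτ hτ1
    · rw [(commutator_eq_bot_iff' K).2 hcomm]
    · rwa [Subgroup.relIndex_bot_left]
  · by_cases hnp : ∃ p m : ℕ, p.Prime ∧ Nat.card K = p ^ m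
    · by_cases hbig : 4 * K.index ^ 2 + 1 < (⁅K, K⁆ : Subgroup L).relIndex K
      · exact Or.inl (coherent_of_big K hnil hK1 hC hτ hτ1 hlt hbig)
      · right
        obtain ⟨p, m, hp, hm⟩ := hnp
        exact ⟨p, hp, ⟨m, hm⟩, hcomm, not_lt.1 hbig⟩
    · exact Or.inl (coherent_of_not_pgroup K hnil hC hτ hτ1 hlt hnp)

/-- A Frobenius kernel which is a non-abelian `p`-group, `p` odd, has odd index. -/
theorem odd_of_nonabelian {p m : ℕ} (hp2 : p ≠ 2) (hp : p.Prime) (hm : Nat.card K = p ^ m)
    (hC : ∀ k ∈ K, k ≠ 1 → Subgroup.centralizer ({k} : Set L) ≤ K) (hna : ¬ IsMulCommutative K) :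
    Odd (Nat.card L) := by
  by_contra hodd
  rw [Nat.not_odd_iff_even] at hodd
  haveI := Fact.mk Nat.prime_two
  obtain ⟨t, ht⟩ := exists_prime_orderOf_dvd_card' 2 hodd.two_dvd
  have hKodd : ¬ 2 ∣ Nat.card K := by
    rw [hm]
    intro h
    have := Nat.prime_two.dvd_of_dvd_pow h
    exact hp2 ((Nat.prime_dvd_prime_iff_eq Nat.prime_two hp).1 this).symm
  have htK : t ∉ K := by
    intro h
    apply hKodd
    rw [← ht]
    exact Subgroup.orderOf_dvd_natCard K h
  apply hna
  have hfpf : MonoidHom.FixedPointFree (MulAut.conjNormal t : K ≃* K) := by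
    intro x hx
    by_contra hx1
    apply htK
    apply hC x x.2 (fun e => hx1 (Subtype.ext e))
    rw [Subgroup.mem_centralizer_singleton_iff]
    have h1 : t * (x : L) * t⁻¹ = x := by
      have := congrArg Subtype.val hx
      rwa [MulAut.conjNormal_apply] at this
    exact mul_inv_eq_iff_eq_mul.1 h1
  have hinv : Function.Involutive (MulAut.conjNormal t : K ≃* K) := by
    intro x
    apply Subtype.ext
    rw [MulAut.conjNormal_apply, MulAut.conjNormal_apply]
    have h2 : t * t = 1 := by rw [← sq, ← ht]; exact pow_orderOf_eq_one t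
    have h3 : t⁻¹ = t := inv_eq_of_mul_eq_one_right h2
    rw [h3]
    calc t * (t * (x : L) * t) * t = (t * t) * x * (t * t) := by group
      _ = x := by rw [h2]; group
  refine ⟨⟨fun a b => ?_⟩⟩
  exact hfpf.commute_all_of_involutive hinv a b

/-- the case `|K| = e + 1`. -/
theorem exceptional (hK1 : K ≠ ⊥) (hC : ∀ k ∈ K, k ≠ 1 → Subgroup.centralizer ({k} : Set L) ≤ K)
    (he : Nat.card K = K.index + 1) :
    Nat.card {χ : L → ℂ // IsIrrCharacter L χ ∧ ∃ k ∈ K, χ k ≠ χ 1} = 1 ∧
      ∃ p : ℕ, p.Prime ∧ IsMulCommutative K ∧ ∀ a ∈ K, a ^ p = 1 := by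
  classical
  let _ := conjNe K
  haveI : Fintype {w : L // w ∈ K ∧ w ≠ 1} := Fintype.ofFinite _
  have hepos : 0 < K.index := Nat.pos_of_ne_zero (Subgroup.index_ne_zero_of_finite (H := K))
  have hcardne : Nat.card {w : L // w ∈ K ∧ w ≠ 1} = K.index := by
    have h1 : Nat.card {w : L // w ∈ K ∧ w ≠ 1} + 1 = Nat.card K := by
      have h2 : Nat.card (Option {w : L // w ∈ K ∧ w ≠ 1}) = Nat.card K := by
        apply Nat.card_congr
        refine
        { toFun := fun o => match o with
            | none => 1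
            | some w => ⟨w.1, w.2.1⟩
          invFun := fun k => if h : (k : L) = 1 then none else some ⟨k, k.2, h⟩
          left_inv := ?_
          right_inv := ?_ }
        · rintro (_ | w)
          · simp
          · simp [w.2.2]
        · intro k
          by_cases h : (k : L) = 1
          · simp only [h, dif_pos]
            exact Subtype.ext h.symm
          · simp [h]
      rw [← h2, Finite.card_option]
    omega
  -- every orbit is everything
  have horb : ∀ w : {w : L // w ∈ K ∧ w ≠ 1}, MulAction.orbit L w = Set.univ ∧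
      (∀ k ∈ K, k * (w : L) = w * k) := by
    intro w
    have hst : MulAction.stabilizer L w ≤ K := by
      intro x hx
      apply hC w w.2.1 w.2.2
      rw [Subgroup.mem_centralizer_singleton_iff]
      have h1 : x * (w : L) * x⁻¹ = w := congrArg Subtype.val hx
      exact mul_inv_eq_iff_eq_mul.1 h1
    have h1 : (MulAction.stabilizer L w).index = Nat.card (MulAction.orbit L w) :=
      MulAction.index_stabilizer L w
    have h2 : Nat.card (MulAction.orbit L w) ≤ K.index := by
      rw [← hcardne]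
      exact Nat.card_le_card_of_injective _ Subtype.val_injective
    have h3 : (MulAction.stabilizer L w).relIndex K * K.index = (MulAction.stabilizer L w).index :=
      Subgroup.relIndex_mul_index hst
    have h4 : (MulAction.stabilizer L w).relIndex K = 1 := by
      have p1 : 0 < (MulAction.stabilizer L w).relIndex K := Nat.pos_of_ne_zero Subgroup.index_ne_zero_of_finite
      by_contra hne
      have : 2 ≤ (MulAction.stabilizer L w).relIndex K := by omega
      have h5 : 2 * K.index ≤ K.index := by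
        calc 2 * K.index ≤ (MulAction.stabilizer L w).relIndex K * K.index := Nat.mul_le_mul_right _ this
          _ ≤ K.index := by rw [h3, h1]; exact h2
      omega
    refine ⟨?_, ?_⟩
    · rw [h4, one_mul] at h3
      apply Set.eq_univ_of_univ_subset
      have h5 : (MulAction.orbit L w).ncard = (Set.univ : Set {w : L // w ∈ K ∧ w ≠ 1}).ncard := by
        rw [Set.ncard_univ, hcardne, h3, h1]
        rfl
      exact (Set.eq_of_subset_of_ncard_le (Set.subset_univ _) h5.ge (Set.toFinite _)).ge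
    · intro k hk
      have h5 := Subgroup.relIndex_eq_one.1 h4 hk
      have h1 : k * (w : L) * k⁻¹ = w := congrArg Subtype.val h5
      exact mul_inv_eq_iff_eq_mul.1 h1
  have hcomm : IsMulCommutative K := by
    refine ⟨⟨fun a b => Subtype.ext ?_⟩⟩
    by_cases hb : (b : L) = 1
    · have : b = 1 := Subtype.ext hb
      rw [this, mul_one, one_mul]
    · exact (horb ⟨b, b.2, hb⟩).2 a a.2
  refine ⟨?_, ?_⟩
  · obtain ⟨T, hT⟩ := (above_finite K ⊥).exists_finset_coe
    have hmT : ∀ φ, φ ∈ T ↔ φ ∈ inducedIrrAbove K ⊥ := fun φ => by rw [← hT]; simp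
    have hle : ⁅K, K⁆ ≤ (⊥ : Subgroup L) := by rw [(commutator_eq_bot_iff' K).2 hcomm]
    have hsum := sum_above_sq K hC ⊥ bot_le T hT (fun _ => K.index)
      (fun χ hχ => above_linear_degree K hle ((hmT χ).1 hχ))
    simp only [Finset.sum_const, smul_eq_mul, Subgroup.relIndex_bot_left, he, Nat.add_sub_cancel] at hsum
    have hT1 : T.card = 1 := by
      have h5 : T.card * K.index ^ 2 = 1 * K.index ^ 2 := by rw [hsum]; ring
      exact Nat.eq_of_mul_eq_mul_right (by positivity) h5
    have h6 : Nat.card {χ : L → ℂ // IsIrrCharacter L χ ∧ ∃ k ∈ K, χ k ≠ χ 1} = T.card := by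
      have h7 := frobKer_above_eq K hC
      rw [← hT] at h7
      have h8 : ∀ χ : L → ℂ, (IsIrrCharacter L χ ∧ ∃ k ∈ K, χ k ≠ χ 1) ↔ χ ∈ T := fun χ => by
        rw [← Finset.mem_coe, h7]; rfl
      rw [Nat.card_congr (Equiv.subtypeEquivRight h8), Nat.card_eq_fintype_card, Fintype.card_coe]
    rw [h6, hT1]
  · obtain ⟨w0, hw0⟩ := Subgroup.ne_bot_iff_exists_ne_one.1 hK1
    have hc1 : Nat.card K ≠ 1 := by rw [he]; omega
    obtain ⟨p, hp, hpd⟩ := Nat.exists_prime_and_dvd hc1
    haveI := Fact.mk hp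
    obtain ⟨a, ha⟩ := exists_prime_orderOf_dvd_card' p hpd
    refine ⟨p, hp, hcomm, ?_⟩
    intro b hb
    by_cases hb1 : b = 1
    · rw [hb1, one_pow]
    have ha1 : (a : L) ≠ 1 := by
      intro e
      have : a = 1 := Subtype.ext e
      rw [this, orderOf_one] at ha
      exact hp.one_lt.ne ha
    have hmem : (⟨b, hb, hb1⟩ : {w : L // w ∈ K ∧ w ≠ 1}) ∈ MulAction.orbit L (⟨a, a.2, ha1⟩ : {w : L // w ∈ K ∧ w ≠ 1}) := by
      rw [(horb _).1]; trivial
    obtain ⟨g, hg⟩ := hmem
    have hg' : g * (a : L) * g⁻¹ = b := congrArg Subtype.val hg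
    rw [← hg', conj_pow]
    have : (a : L) ^ p = 1 := by
      rw [← ha, ← Subgroup.orderOf_coe]
      exact pow_orderOf_eq_one _
    rw [this]; group

end

end Cfsg.Agent.Coh
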