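import Cfsg.Agent.Coh.IrrMain
import Cfsg.Prelude.Def_OddOrderLocal

/-!
# Coherence for TI subgroups with the Frobenius property (owner: helper57)
-/

set_option autoImplicit false
set_option linter.unusedSectionVars false

namespace Cfsg.Agent.Coh

open scoped ComplexConjugate
open Cfsg Cfsg.Agent.CharBase

universe u

section

variable {G : Type u} [Group G] [Fintype G] (P L : Subgroup G) [Fintype L]

theorem ti_setup (hN : Subgroup.normalizer (P : Set G) = L)
    (hTI : IsTISubset (P : Set G)) (hlt : P < L)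
    (hC : ∀ k ∈ P, k ≠ 1 → Subgroup.centralizer ({k} : Set G) ≤ P) :
    (P.subgroupOf L).Normal ∧
    (∀ k ∈ P.subgroupOf L, k ≠ 1 → Subgroup.centralizer ({k} : Set L) ≤ P.subgroupOf L) ∧
    (P.subgroupOf L).map L.subtype = P ∧
    Nat.card (P.subgroupOf L) = Nat.card P ∧
    (IsMulCommutative (P.subgroupOf L) ↔ IsMulCommutative P) ∧
    P.subgroupOf L ≠ ⊤ ∧
    IsLinearIsometryOn (zspanOn (inducedIrrAbove (P.subgroupOf L) ⊥) {1}ᶜ) (fun α : L → ℂ => indFun L α) ∧
    ∀ α ∈ zspanOn (inducedIrrAbove (P.subgroupOf L) ⊥) {1}ᶜ, (fun α : L → ℂ => indFun L α) α 1 = 0 := by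
  have hle : P ≤ L := hlt.le
  have hn : (P.subgroupOf L).Normal := by
    subst hN
    exact Subgroup.normal_in_normalizer
  have hmap := Subgroup.map_subgroupOf_eq_of_le hle
  refine ⟨hn, ?_, hmap, Nat.card_congr (Subgroup.subgroupOfEquivOfLe hle).toEquiv, ?_, ?_, ?_, ?_⟩
  · intro k hk hk1 x hx
    apply hC k hk (fun e => hk1 (Subtype.ext e))
    rw [Subgroup.mem_centralizer_singleton_iff] at hx ⊢
    exact congrArg Subtype.val hx
  · constructor
    · intro h
      refine ⟨⟨fun a b => Subtype.ext ?_⟩⟩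
      have h1 := h.1.1 (⟨⟨a, hle a.2⟩, a.2⟩ : ↥(P.subgroupOf L)) ⟨⟨b, hle b.2⟩, b.2⟩
      exact congrArg (fun z : ↥(P.subgroupOf L) => ((z : L) : G)) h1
    · intro h
      refine ⟨⟨fun a b => Subtype.ext (Subtype.ext ?_)⟩⟩
      have h1 := h.1.1 (⟨((a : L) : G), a.2⟩ : P) ⟨((b : L) : G), b.2⟩
      exact congrArg (fun z : ↥P => (z : G)) h1
  · intro h
    rw [Subgroup.subgroupOf_eq_top] at h
    exact hlt.not_ge h
  · apply ti_isometry L P hle hTI hN
    intro α hα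
    obtain ⟨h1, h2⟩ := above_zspanOn_supp (P.subgroupOf L) ⊥ hα
    exact ⟨h1, fun x hx => h2 x hx⟩
  · intro α hα
    change indFun L α 1 = 0
    rw [Char.indFun_one_apply, (mem_zspanOn_one.1 hα).2, mul_zero]

theorem set_eq (hC : ∀ k ∈ P.subgroupOf L, k ≠ 1 → Subgroup.centralizer ({k} : Set L) ≤ P.subgroupOf L)
    [(P.subgroupOf L).Normal] :
    {χ : L → ℂ | IsIrrCharacter L χ ∧ ∃ x : L, (x : G) ∈ P ∧ χ x ≠ χ 1} = inducedIrrAbove (P.subgroupOf L) ⊥ :=
  (frobKer_above_eq (P.subgroupOf L) hC).symm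

/-- S1534 -/
theorem ti_main (hN : Subgroup.normalizer (P : Set G) = L) (hP1 : P ≠ ⊥)
    (hTI : IsTISubset (P : Set G)) (hlt : P < L)
    (hC : ∀ k ∈ P, k ≠ 1 → Subgroup.centralizer ({k} : Set G) ≤ P) :
    (Nat.card {χ : L → ℂ // IsIrrCharacter L χ ∧ ∃ k : L, (k : G) ∈ P ∧ χ k ≠ χ 1} = 1 ∧
      Nat.card P = (P.subgroupOf L).index + 1 ∧ ∃ p : ℕ, p.Prime ∧ IsElementaryAbelian p P) ∨
    (Nat.card P = 2 ^ (Nat.card G).factorization 2 ∧ (⁅P, P⁆.subgroupOf P).index < 4 * (P.subgroupOf L).index ^ 2 ∧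
      ¬ IsMulCommutative P) ∨
    IsCoherent {χ : L → ℂ | IsIrrCharacter L χ ∧ ∃ k : L, (k : G) ∈ P ∧ χ k ≠ χ 1} {1}ᶜ
      (fun α => indFun L α) := by
  classical
  obtain ⟨hn, hC', hmap, hcard, hcomm, htop, hτ, hτ1⟩ := ti_setup P L hN hTI hlt hC
  have hset := set_eq P L hC'
  rw [hset]
  have hK1 : P.subgroupOf L ≠ ⊥ := by
    intro h
    apply hP1
    rw [← hmap, h, Subgroup.map_bot]
  have hnil : Group.IsNilpotent ↥(P.subgroupOf L) := frobKer_nilpotent (P.subgroupOf L) htop hC'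
  by_cases he : Nat.card (P.subgroupOf L) = (P.subgroupOf L).index + 1
  · left
    obtain ⟨h1, q, hq, h2, h3⟩ := exceptional (P.subgroupOf L) hK1 hC' he
    refine ⟨h1, hcard.symm.trans he, q, hq, hcomm.1 h2, ?_⟩
    intro a ha
    have h4 : (⟨a, hlt.le ha⟩ : L) ^ q = 1 := h3 ⟨a, hlt.le ha⟩ ha
    exact congrArg Subtype.val h4
  right
  rcases coherent_main (P.subgroupOf L) hnil hK1 hC' he hτ hτ1 with h | ⟨p, hp, ⟨m, hm⟩, hna, hle⟩
  · exact Or.inr h
  by_cases hp2 : p = 2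
  · left
    subst hp2
    have hlt' := commutator_lt (P.subgroupOf L) hnil hK1
    have hepos : 0 < (P.subgroupOf L).index := Nat.pos_of_ne_zero (Subgroup.index_ne_zero_of_finite)
    have he1 : (P.subgroupOf L).index ≠ 1 := fun h => htop (Subgroup.index_eq_one.1 h)
    have hdvd := index_dvd_relIndex_sub_one (P.subgroupOf L) ⁅P.subgroupOf L, P.subgroupOf L⁆ (P.subgroupOf L) le_rfl
      hlt'.le le_rfl (frob_quot (P.subgroupOf L) hC' _ hlt'.le)
    set K := P.subgroupOf L with hKdef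
    set x := (⁅K, K⁆ : Subgroup L).relIndex K with hx
    have hxd : x ∣ 2 ^ m := by
      rw [← hm]
      exact Subgroup.relIndex_dvd_card _ _
    obtain ⟨a, ha, hxa⟩ := (Nat.dvd_prime_pow Nat.prime_two).1 hxd
    have hx1 : x ≠ 1 := fun h => hlt'.not_ge (Subgroup.relIndex_eq_one.1 h)
    have ha0 : a ≠ 0 := by
      intro h
      rw [h, pow_zero] at hxa
      exact hx1 hxa
    have h2x : 2 ∣ x := by rw [hxa]; exact dvd_pow_self 2 ha0
    have h2e : ¬ 2 ∣ K.index := by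
      intro h
      have h3 := h.trans hdvd
      have : 0 < x := Nat.pos_of_ne_zero Subgroup.index_ne_zero_of_finite
      omega
    refine ⟨?_, ?_, fun h => hna (hcomm.2 h)⟩
    · haveI := Fact.mk Nat.prime_two
      obtain ⟨Q, hQ⟩ := exists_sylow_of_ti 2 P m (hcard.symm.trans hm) (by
        rw [hN]; exact h2e)
      rw [← hQ]
      exact Q.card_eq_multiplicity
    · have hxx : (⁅P, P⁆.subgroupOf P).index = x := by
        change (⁅P, P⁆).relIndex P = x
        have e1 : (⁅K, K⁆).map L.subtype = ⁅P, P⁆ := by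
          rw [Subgroup.map_commutator, hmap]
        have e2 : ((⁅K, K⁆).map L.subtype).relIndex (K.map L.subtype) = (⁅K, K⁆).relIndex K :=
          Subgroup.relIndex_map_map_of_injective _ _ L.subtype_injective
        rw [e1, hmap] at e2
        exact e2
      rw [hxx]
      have hne1 : x ≠ 4 * K.index ^ 2 + 1 := by
        intro h; omega
      have hne2 : x ≠ 4 * K.index ^ 2 := by
        intro h
        apply he1
        have h3 : K.index ∣ x := by rw [h]; exact Dvd.dvd.mul_left (dvd_pow_self _ two_ne_zero) 4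
        have hpos : 0 < x := Nat.pos_of_ne_zero Subgroup.index_ne_zero_of_finite
        have h4 : K.index ∣ x - (x - 1) := Nat.dvd_sub h3 hdvd
        have h5 : x - (x - 1) = 1 := by omega
        rw [h5] at h4
        exact Nat.dvd_one.1 h4
      omega
  · right
    have hodd := odd_of_nonabelian (P.subgroupOf L) hp2 hp hm hC' hna
    exact sibley_odd L (P.subgroupOf L) hodd hnil hK1 hC' (by rw [hmap]; exact hTI) (by rw [hmap]; exact hN)

/-- S1532 -/
theorem ti_central {p : ℕ} [hp : Fact p.Prime] (hp2 : p ≠ 2) (hPp : IsPGroup p P)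
    (hN : Subgroup.normalizer (P : Set G) = L) (hP1 : P ≠ ⊥)
    (hTI : IsTISubset (P : Set G)) (hlt : P < L)
    (hC : ∀ k ∈ P, k ≠ 1 → Subgroup.centralizer ({k} : Set G) ≤ P) (hna : ¬ IsMulCommutative P)
    (Z : Subgroup G) (hZ1 : Z ≠ ⊥) (hZP : ∀ z ∈ Z, z ∈ P ∧ ∀ y ∈ P, z * y = y * z)
    (hZn : ∀ x ∈ L, ∀ z ∈ Z, x * z * x⁻¹ ∈ Z) :
    IsCoherent {χ : L → ℂ | IsIrrCharacter L χ ∧ ∃ z : L, (z : G) ∈ Z ∧ χ z ≠ χ 1} {1}ᶜ
      (fun α => indFun L α) := by
  classical
  obtain ⟨hn, hC', hmap, hcard, hcomm, htop, hτ, hτ1⟩ := ti_setup P L hN hTI hlt hC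
  have hK1 : P.subgroupOf L ≠ ⊥ := by
    intro h
    apply hP1
    rw [← hmap, h, Subgroup.map_bot]
  have hnil : Group.IsNilpotent ↥(P.subgroupOf L) := frobKer_nilpotent (P.subgroupOf L) htop hC'
  have hsolv : Group.IsSolvable ↥(P.subgroupOf L) := inferInstance
  obtain ⟨m, hm⟩ := IsPGroup.iff_card.1 hPp
  have hodd := odd_of_nonabelian (P.subgroupOf L) hp2 hp.out (hcard.trans hm) hC' (fun h => hna (hcomm.1 h))
  obtain ⟨R, hS⟩ := ti_system L (P.subgroupOf L) hodd hsolv hK1 hC' (by rw [hmap]; exact hTI) (by rw [hmap]; exact hN)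
  have hlt' := commutator_lt (P.subgroupOf L) hnil hK1
  haveI hZnorm : (Z.subgroupOf L).Normal := by
    constructor
    intro n hn g
    exact hZn g g.2 n hn
  have hZle : Z ≤ L := fun z hz => hlt.le (hZP z hz).1
  have hZK : Z.subgroupOf L ≤ P.subgroupOf L := fun z hz => (hZP z hz).1
  have hZ1' : Z.subgroupOf L ≠ ⊥ := by
    intro h
    apply hZ1
    rw [← Subgroup.map_subgroupOf_eq_of_le hZle, h, Subgroup.map_bot]
  have hirr : ∀ χ ∈ inducedIrrAbove (P.subgroupOf L) ⊥ \ inducedIrrAbove (P.subgroupOf L) (Z.subgroupOf L),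
      IsIrrCharacter L χ := fun χ hχ => above_irr _ hC' hχ.1
  have h1 := central_coherent (P.subgroupOf L) hsolv hS hodd hnil hlt'
    (frob_quot (P.subgroupOf L) hC' _ hlt'.le) (Z.subgroupOf L) hZ1' hZK
    (fun z hz k hk => Subtype.ext ((hZP z hz).2 k hk)) hirr
  have h2 := above_irr_eq (P.subgroupOf L) hZK hirr
  rw [h2] at h1
  exact h1

end

end Cfsg.Agent.Coh
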