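import Cfsg.Agent.Coh.Feit
import Cfsg.Agent.Coh.FrobNilp
import Cfsg.Agent.Coh.Nilp

/-!
# Coherence of sets of irreducible characters without the reality condition (owner: helper57)

* `coherent_uniform_irr`: at least two irreducible characters of the same degree;
* `extend_all_irr`: iterated Feit criterion.
-/

set_option autoImplicit false
set_option linter.unusedSectionVars false

namespace Cfsg.Agent.Coh

open scoped ComplexConjugate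
open Cfsg Cfsg.Agent.CharBase

universe u v

section

variable {L : Type u} [Group L] [Fintype L] {G : Type v} [Group G] [Fintype G]

theorem inner_irr_eq {α β : G → ℂ} (hα : IsIrrCharacter G α) (hβ : IsIrrCharacter G β) [Decidable (α = β)] :
    classInner α β = if α = β then 1 else 0 := by
  split_ifs with h
  · subst h; exact classInner_irr_self ⟨α, hα⟩
  · exact classInner_irr_of_ne (χ := ⟨α, hα⟩) (ψ := ⟨β, hβ⟩) (fun e => h (congrArg Subtype.val e))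

/-- A virtual character of squared norm two vanishing at `1` is a difference of irreducible characters. -/
theorem diff_of_norm_two {f : G → ℂ} (hf : IsGeneralizedCharacter G f) (h2 : classInner f f = 2) (h1 : f 1 = 0) :
    ∃ p : (G → ℂ) × (G → ℂ), IsIrrCharacter G p.1 ∧ IsIrrCharacter G p.2 ∧ p.1 ≠ p.2 ∧ f = p.1 - p.2 := by
  classical
  obtain ⟨α, β, hα, hβ, hab, rfl⟩ := sum_two_of_norm_two hf h2
  have hpos : ∀ {γ : G → ℂ}, IsIrrCharacter G γ → ∃ n : ℕ, 0 < n ∧ γ 1 = n := fun h => by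
    obtain ⟨n, hn, hn1⟩ := irr_degree h; exact ⟨n, hn, hn1⟩
  rw [Pi.add_apply] at h1
  rcases hα with hα | hα <;> rcases hβ with hβ | hβ
  · exfalso
    obtain ⟨n, hn, hn1⟩ := hpos hα
    obtain ⟨m, hm, hm1⟩ := hpos hβ
    rw [hn1, hm1] at h1
    have : n + m = 0 := by exact_mod_cast h1
    omega
  · refine ⟨(α, -β), hα, hβ, ?_, by simp⟩
    intro e
    simp only at e
    rw [e, classInner_neg_left] at hab
    have : classInner β β = 1 := by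
      have := classInner_irr_self ⟨-β, hβ⟩
      simpa [classInner_neg_left, classInner_neg_right] using this
    rw [this] at hab
    norm_num at hab
  · refine ⟨(β, -α), hβ, hα, ?_, by simp [add_comm]⟩
    intro e
    simp only at e
    rw [e, classInner_neg_right] at hab
    have : classInner α α = 1 := by
      have := classInner_irr_self ⟨-α, hα⟩
      simpa [classInner_neg_left, classInner_neg_right] using this
    rw [this] at hab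
    norm_num at hab
  · exfalso
    obtain ⟨n, hn, hn1⟩ := hpos hα
    obtain ⟨m, hm, hm1⟩ := hpos hβ
    rw [Pi.neg_apply] at hn1 hm1
    have h3 : (n : ℂ) + m = 0 := by rw [← hn1, ← hm1]; linear_combination -h1
    have : n + m = 0 := by exact_mod_cast h3
    omega

variable {T : Finset (L → ℂ)} {τ : (L → ℂ) → (G → ℂ)}

/-- the base point for the images of a set of constant degree. -/
theorem exists_base (hirr : ∀ χ ∈ T, IsIrrCharacter L χ) {χ₀ : L → ℂ} (hχ₀ : χ₀ ∈ T)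
    (hne : ∃ χ ∈ T, χ ≠ χ₀) (hdeg : ∀ χ ∈ T, ∀ ξ ∈ T, χ 1 = ξ 1)
    (hτ : IsLinearIsometryOn (zspanOn (T : Set (L → ℂ)) {1}ᶜ) τ)
    (hτ1 : ∀ α ∈ zspanOn (T : Set (L → ℂ)) {1}ᶜ, τ α 1 = 0) :
    ∃ X : G → ℂ, IsGeneralizedCharacter G X ∧ classInner X X = 1 ∧
      ∀ χ ∈ T, χ ≠ χ₀ → classInner (τ (χ - χ₀)) X = -1 := by
  classical
  have hmem : ∀ χ ∈ T, χ - χ₀ ∈ zspanOn (T : Set (L → ℂ)) {1}ᶜ := by
    intro χ hχ
    rw [mem_zspanOn_one]
    exact ⟨zspan_sub (zspan_subset hχ) (zspan_subset hχ₀), by rw [Pi.sub_apply, hdeg χ hχ χ₀ hχ₀, sub_self]⟩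
  have hLL : ∀ χ ∈ T, ∀ ξ ∈ T, classInner χ ξ = if χ = ξ then 1 else 0 := fun χ hχ ξ hξ =>
    inner_irr_eq (hirr χ hχ) (hirr ξ hξ)
  have hD : ∀ χ : L → ℂ, ∃ p : (G → ℂ) × (G → ℂ), χ ∈ T → χ ≠ χ₀ →
      IsIrrCharacter G p.1 ∧ IsIrrCharacter G p.2 ∧ p.1 ≠ p.2 ∧ τ (χ - χ₀) = p.1 - p.2 := by
    intro χ
    by_cases h : χ ∈ T ∧ χ ≠ χ₀
    · obtain ⟨p, hp⟩ := diff_of_norm_two (hτ.2.2.2 _ (hmem χ h.1)) (by
        rw [hτ.2.2.1 _ (hmem χ h.1) _ (hmem χ h.1), classInner_sub_left, classInner_sub_right, classInner_sub_right,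
          hLL _ h.1 _ h.1, hLL _ h.1 _ hχ₀, hLL _ hχ₀ _ h.1, hLL _ hχ₀ _ hχ₀, if_pos rfl, if_neg h.2,
          if_neg h.2.symm, if_pos rfl]
        norm_num) (hτ1 _ (hmem χ h.1))
      exact ⟨p, fun _ _ => hp⟩
    · exact ⟨(0, 0), fun h1 h2 => absurd ⟨h1, h2⟩ h⟩
  choose p hp using hD
  have hrel : ∀ χ ∈ T, ∀ ξ ∈ T, χ ≠ χ₀ → ξ ≠ χ₀ → (p χ).1 = (p ξ).1 ∨ (p χ).2 = (p ξ).2 := by
    intro χ hχ ξ hξ h1 h2
    by_cases hχξ : χ = ξ
    · subst hχξ; exact Or.inl rfl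
    obtain ⟨a1, a2, a3, a4⟩ := hp χ hχ h1
    obtain ⟨b1, b2, b3, b4⟩ := hp ξ hξ h2
    have h3 := hτ.2.2.1 _ (hmem χ hχ) _ (hmem ξ hξ)
    rw [a4, b4, classInner_sub_left, classInner_sub_right, classInner_sub_right, classInner_sub_left,
      classInner_sub_right, classInner_sub_right, inner_irr_eq a1 b1, inner_irr_eq a1 b2, inner_irr_eq a2 b1,
      inner_irr_eq a2 b2, hLL _ hχ _ hξ, hLL _ hχ _ hχ₀, hLL _ hχ₀ _ hξ, hLL _ hχ₀ _ hχ₀, if_neg hχξ, if_neg h1,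
      if_neg h2.symm, if_pos rfl] at h3
    by_contra hcon
    rw [not_or] at hcon
    rw [if_neg hcon.1, if_neg hcon.2] at h3
    split_ifs at h3 <;> norm_num at h3
  obtain ⟨χ₁, hχ₁, hχ₁0⟩ := hne
  have hval : ∀ {X : G → ℂ}, IsIrrCharacter G X → classInner X X = 1 := fun h => classInner_irr_self ⟨_, h⟩
  have horth : ∀ {X Y : G → ℂ}, IsIrrCharacter G X → IsIrrCharacter G Y → X ≠ Y → classInner X Y = 0 :=
    fun h h' e => by rw [inner_irr_eq h h', if_neg e]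
  by_cases hall : ∀ χ ∈ T, χ ≠ χ₀ → (p χ).2 = (p χ₁).2
  · obtain ⟨a1, a2, a3, a4⟩ := hp χ₁ hχ₁ hχ₁0
    refine ⟨(p χ₁).2, isGen_of_isIrr a2, hval a2, ?_⟩
    intro χ hχ h0
    obtain ⟨b1, b2, b3, b4⟩ := hp χ hχ h0
    rw [b4, hall χ hχ h0, classInner_sub_left, hval a2, horth b1 a2 (by rw [← hall χ hχ h0]; exact b3)]
    norm_num
  · push Not at hall
    obtain ⟨χ₂, hχ₂, hχ₂0, h2⟩ := hall
    have h12 : (p χ₂).1 = (p χ₁).1 := (hrel χ₂ hχ₂ χ₁ hχ₁ hχ₂0 hχ₁0).resolve_right h2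
    have hall1 : ∀ χ ∈ T, χ ≠ χ₀ → (p χ).1 = (p χ₁).1 := by
      intro χ hχ h0
      rcases hrel χ hχ χ₁ hχ₁ h0 hχ₁0 with h3 | h3
      · exact h3
      · rcases hrel χ hχ χ₂ hχ₂ h0 hχ₂0 with h4 | h4
        · rw [h4, h12]
        · exact absurd (h4.symm.trans h3) h2
    obtain ⟨a1, a2, a3, a4⟩ := hp χ₁ hχ₁ hχ₁0
    refine ⟨-(p χ₁).1, isGen_neg (isGen_of_isIrr a1), ?_, ?_⟩
    · rw [classInner_neg_left, classInner_neg_right, hval a1]; norm_num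
    · intro χ hχ h0
      obtain ⟨b1, b2, b3, b4⟩ := hp χ hχ h0
      rw [b4, hall1 χ hχ h0, classInner_neg_right, classInner_sub_left, hval a1,
        horth b2 a1 (by rw [← hall1 χ hχ h0]; exact b3.symm)]
      norm_num

/-- a set of at least two irreducible characters of the same degree is coherent. -/
theorem coherent_uniform_irr (hirr : ∀ χ ∈ T, IsIrrCharacter L χ) (h2 : ∃ a ∈ T, ∃ b ∈ T, a ≠ b)
    (hdeg : ∀ χ ∈ T, ∀ ξ ∈ T, χ 1 = ξ 1) (hτ : IsLinearIsometryOn (zspanOn (T : Set (L → ℂ)) {1}ᶜ) τ)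
    (hτ1 : ∀ α ∈ zspanOn (T : Set (L → ℂ)) {1}ᶜ, τ α 1 = 0) :
    IsCoherent (T : Set (L → ℂ)) {1}ᶜ τ := by
  classical
  obtain ⟨χ₁, hχ₁, χ₀, hχ₀, hne⟩ := h2
  obtain ⟨X, hX, hXn, hXo⟩ := exists_base hirr hχ₀ ⟨χ₁, hχ₁, hne⟩ hdeg hτ hτ1
  have hLL : ∀ χ ∈ T, ∀ ξ ∈ T, classInner χ ξ = if χ = ξ then 1 else 0 := fun χ hχ ξ hξ =>
    inner_irr_eq (hirr χ hχ) (hirr ξ hξ)
  have horth : ∀ ξ ∈ T, ∀ φ ∈ T, ξ ≠ φ → classInner ξ φ = 0 := fun ξ hξ φ hφ h => by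
    rw [hLL ξ hξ φ hφ, if_neg h]
  have hne0 : ∀ ξ ∈ T, ξ ≠ 0 := fun ξ hξ h => irr_one_ne_zero (hirr ξ hξ) (by rw [h]; rfl)
  have hmem : ∀ χ ∈ T, ∀ ξ ∈ T, χ - ξ ∈ zspanOn (T : Set (L → ℂ)) {1}ᶜ := by
    intro χ hχ ξ hξ
    rw [mem_zspanOn_one]
    exact ⟨zspan_sub (zspan_subset hχ) (zspan_subset hξ), by rw [Pi.sub_apply, hdeg χ hχ ξ hξ, sub_self]⟩
  have hiso0 : IsLinearIsometryOn (zdeg0 (T : Set (L → ℂ)) : Set (L → ℂ)) τ := by
    rw [coe_zdeg0]; exact hτ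
  have hm : ∀ χ ∈ T, χ - χ₀ ∈ zdeg0 (T : Set (L → ℂ)) := fun χ hχ => by
    have := hmem χ hχ χ₀ hχ₀
    rwa [← coe_zdeg0] at this
  have hzero : τ (χ₀ - χ₀) = 0 := by rw [sub_self]; exact iso_zero hiso0
  set f : (L → ℂ) → (G → ℂ) := fun χ => X + τ (χ - χ₀) with hf
  have hgen : ∀ χ ∈ T, IsGeneralizedCharacter G (f χ) := fun χ hχ =>
    isGen_add hX (hτ.2.2.2 _ (hmem χ hχ χ₀ hχ₀))
  have hXo' : ∀ χ ∈ T, classInner (τ (χ - χ₀)) X = if χ = χ₀ then 0 else -1 := by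
    intro χ hχ
    split_ifs with h
    · rw [h, hzero, classInner_zero_left]
    · exact hXo χ hχ h
  have hXo'' : ∀ χ ∈ T, classInner X (τ (χ - χ₀)) = if χ = χ₀ then 0 else -1 := by
    intro χ hχ
    rw [classInner_comm hX (hτ.2.2.2 _ (hmem χ hχ χ₀ hχ₀))]
    exact hXo' χ hχ
  have hiso : ∀ χ ∈ T, ∀ ξ ∈ T, classInner (f χ) (f ξ) = classInner χ ξ := by
    intro χ hχ ξ hξ
    have h3 := hτ.2.2.1 _ (hmem χ hχ χ₀ hχ₀) _ (hmem ξ hξ χ₀ hχ₀)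
    rw [hf]
    simp only
    rw [classInner_add_left, classInner_add_right, classInner_add_right, hXn, hXo'' ξ hξ, hXo' χ hχ, h3,
      classInner_sub_left, classInner_sub_right, classInner_sub_right, hLL _ hχ _ hξ, hLL _ hχ _ hχ₀,
      hLL _ hχ₀ _ hξ, hLL _ hχ₀ _ hχ₀, if_pos rfl]
    have e1 : (χ₀ = ξ) = (ξ = χ₀) := propext ⟨Eq.symm, Eq.symm⟩
    simp only [e1]
    split_ifs <;> norm_num
  refine ⟨⟨χ₁ - χ₀, hmem χ₁ hχ₁ χ₀ hχ₀, sub_ne_zero.2 hne⟩, extMap T f,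
    extMap_isLinearIsometryOn horth hne0 hgen hiso, ?_⟩
  intro α hα
  rw [mem_zspanOn_one] at hα
  obtain ⟨hα, hα1⟩ := hα
  obtain ⟨c, rfl⟩ := exists_coeff_of_mem_zspan hα
  have hsum : (∑ χ ∈ T, c χ : ℤ) = 0 := by
    rw [Finset.sum_apply] at hα1
    have h1 : ∑ χ ∈ T, (c χ • χ) 1 = ((∑ χ ∈ T, c χ : ℤ) : ℂ) * χ₀ 1 := by
      push_cast
      rw [Finset.sum_mul]
      exact Finset.sum_congr rfl fun χ hχ => by
        rw [zsmul_app, hdeg χ hχ χ₀ hχ₀]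
    rw [h1] at hα1
    have := (mul_eq_zero.1 hα1).resolve_right (irr_one_ne_zero (hirr χ₀ hχ₀))
    exact_mod_cast this
  have hdec : ∑ χ ∈ T, c χ • χ = ∑ χ ∈ T, c χ • (χ - χ₀) := by
    simp only [smul_sub, Finset.sum_sub_distrib, ← Finset.sum_smul, hsum, zero_smul, sub_zero]
  have hdec' : ∑ χ ∈ T, c χ • f χ = ∑ χ ∈ T, c χ • τ (χ - χ₀) := by
    rw [hf]
    simp only [smul_add, Finset.sum_add_distrib, ← Finset.sum_smul, hsum, zero_smul, zero_add]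
  have h2 : extMap T f (∑ χ ∈ T, c χ • χ) = ∑ χ ∈ T, c χ • f χ := by
    have hadd : ∀ s : Finset (L → ℂ), (∀ χ ∈ s, χ ∈ T) →
        extMap T f (∑ χ ∈ s, c χ • χ) = ∑ χ ∈ s, c χ • f χ := by
      intro s
      induction s using Finset.induction_on with
      | empty => intro _; simp [extMap]
      | insert χ s hχs ih =>
        intro hs
        rw [Finset.sum_insert hχs, Finset.sum_insert hχs, extMap_add, extMap_zsmul,
          extMap_of_mem f horth hne0 (hs χ (Finset.mem_insert_self χ s)),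
          ih fun ξ hξ => hs ξ (Finset.mem_insert_of_mem hξ)]
    exact hadd T fun _ h => h
  rw [h2, hdec, hdec', iso_sum hiso0 _ _ (fun χ hχ => (zdeg0 (T : Set (L → ℂ))).smul_mem _ (hm χ hχ))]
  apply Finset.sum_congr rfl
  intro χ hχ
  rw [iso_zsmul hiso0 (hm χ hχ)]

/-- iterated Feit criterion. -/
theorem extend_all_irr [DecidableEq (L → ℂ)] (d : (L → ℂ) → ℕ) (V : Finset (L → ℂ))
    (hirr : ∀ ξ ∈ V, IsIrrCharacter L ξ) (hd : ∀ ξ ∈ V, ξ 1 = (d ξ : ℂ))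
    (hτ : IsLinearIsometryOn (zspanOn (V : Set (L → ℂ)) {1}ᶜ) τ)
    (hτ1 : ∀ α ∈ zspanOn (V : Set (L → ℂ)) {1}ᶜ, τ α 1 = 0) (S₁ : Finset (L → ℂ)) (hS₁ : S₁ ⊆ V)
    (hcoh : IsCoherent (S₁ : Set (L → ℂ)) {1}ᶜ τ) (ψ : L → ℂ) (hψ : ψ ∈ S₁)
    (hdvd : ∀ χ ∈ V, d ψ ∣ d χ) (hineq : ∀ χ ∈ V, χ ∉ S₁ → 2 * d ψ * d χ < ∑ ξ ∈ S₁, d ξ ^ 2) :
    IsCoherent (V : Set (L → ℂ)) {1}ᶜ τ := by
  classical
  -- induction on the number of missing characters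
  suffices H : ∀ n : ℕ, ∀ S₂ : Finset (L → ℂ), S₁ ⊆ S₂ → S₂ ⊆ V → IsCoherent (S₂ : Set (L → ℂ)) {1}ᶜ τ →
      (V \ S₂).card = n → IsCoherent (V : Set (L → ℂ)) {1}ᶜ τ from
    H _ S₁ (Finset.Subset.refl _) hS₁ hcoh rfl
  intro n
  induction n with
  | zero =>
    intro S₂ _ h2 hc hn
    have : S₂ = V := by
      apply Finset.Subset.antisymm h2
      rw [← Finset.sdiff_eq_empty_iff_subset]
      exact Finset.card_eq_zero.1 hn
    rwa [this] at hc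
  | succ n ih =>
    intro S₂ h1 h2 hc hn
    obtain ⟨χ, hχ⟩ : (V \ S₂).Nonempty := by rw [← Finset.card_pos, hn]; omega
    rw [Finset.mem_sdiff] at hχ
    have hsub : insert χ S₂ ⊆ V := Finset.insert_subset hχ.1 h2
    have hcoe : ((insert χ S₂ : Finset (L → ℂ)) : Set (L → ℂ)) = insert χ (S₂ : Set (L → ℂ)) := by
      rw [Finset.coe_insert]
    have hmono : ∀ α, α ∈ zspanOn (↑(insert χ S₂) : Set (L → ℂ)) {1}ᶜ → α ∈ zspanOn (V : Set (L → ℂ)) {1}ᶜ :=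
      fun α hα => zspanOn_mono (Finset.coe_subset.2 hsub) hα
    apply ih (insert χ S₂) (h1.trans (Finset.subset_insert _ _)) hsub
    · apply feit_criterion S₂ χ (fun ξ hξ => hirr ξ (h2 hξ)) (hirr χ hχ.1) hχ.2 d (insert χ S₂) hcoe
        (fun ξ hξ => hd ξ (hsub hξ)) τ
        ⟨fun α hα β hβ => hτ.1 α (hmono α hα) β (hmono β hβ), fun α hα m => hτ.2.1 α (hmono α hα) m,
          fun α hα β hβ => hτ.2.2.1 α (hmono α hα) β (hmono β hβ), fun α hα => hτ.2.2.2 α (hmono α hα)⟩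
        (fun α hα => hτ1 α (hmono α hα)) hc ψ (h1 hψ) (hdvd χ hχ.1)
      refine lt_of_lt_of_le (hineq χ hχ.1 (fun h => hχ.2 (h1 h))) ?_
      exact Finset.sum_le_sum_of_subset h1
    · have : V \ insert χ S₂ = (V \ S₂).erase χ := by
        ext x
        simp only [Finset.mem_sdiff, Finset.mem_insert, Finset.mem_erase]
        tauto
      rw [this, Finset.card_erase_of_mem (Finset.mem_sdiff.2 hχ), hn]
      rfl

end

end Cfsg.Agent.Coh
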